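import Cfsg.Agent.Lib.Helper91.LBP3a
import Cfsg.Agent.Lib.Helper60.LBP2

set_option autoImplicit false

/-!
# S2686 farm, piece P3
-/

namespace Cfsg.Agent.Lib.Helper91.LBP

open Matrix Cfsg.Agent.Lib.Helper43.PA Cfsg.Agent.Lib.Helper44 Cfsg.Agent.Lib.Helper80.LBP

variable {n : ℕ} {F : Type*} [Field F]

/-- [P3] -/
theorem hb_O [Fintype F] (h2 : (2 : F) ≠ 0) (hn : 3 ≤ n) (A : GL (Fin n) F) (hA : A.1ᵀ = A.1)
    (M : Subgroup (ProjectiveSpecialLinearGroup (Fin n) F)) (hM : M ≤ LL (conjSL A * invT))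
    (hnorm : ∀ l ∈ LL (conjSL A * invT), ∀ k ∈ M, l * k * l⁻¹ ∈ M) (hne : M ≠ ⊥) :
    2 ∣ Nat.card M :=
  hb_O_core (fun G hG hdet H hH hnm hns =>
    Cfsg.Agent.Lib.Helper60.LBP.oddO_geom h2 hn G hG hdet H hH hnm hns) A hA M hM hnorm hne

end Cfsg.Agent.Lib.Helper91.LBP
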