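import Cfsg.Agent.Lib.Helper91.LBP3a
import Cfsg.Agent.Lib.Helper5.SpSimple
import Cfsg.Agent.Lib.Helper5.SpCenter

set_option autoImplicit false

/-!
# S2686 farm, piece P8: normal subgroups of `LL (conjSL J * invT)` have even order
-/

namespace Cfsg.Agent.Lib.Helper91.LBP

open Matrix Cfsg.Agent.Lib.Helper43.PA Cfsg.Agent.Lib.Helper44 Cfsg.Agent.Lib.Helper80.LBP

variable {n m : ℕ} {F : Type*} [Field F]

/-- `Sp_{2m}(F) → SL_n(F)` by reindexing. -/
noncomputable def spSL (e : Fin m ⊕ Fin m ≃ Fin n) :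
    Matrix.symplecticGroup (Fin m) F →* SpecialLinearGroup (Fin n) F where
  toFun s := mkSL (Matrix.reindex e e s.1) (by
    rw [Matrix.det_reindex_self]; exact SymplecticGroup.det_eq_one s.2)
  map_one' := by
    apply SL_ext
    show Matrix.reindex e e (1 : Matrix (Fin m ⊕ Fin m) (Fin m ⊕ Fin m) F) = 1
    simp
  map_mul' s t := by
    apply SL_ext
    show Matrix.reindex e e (s.1 * t.1) = Matrix.reindex e e s.1 * Matrix.reindex e e t.1
    simp [Matrix.submatrix_mul_equiv]

lemma spSL_coe (e : Fin m ⊕ Fin m ≃ Fin n) (s : Matrix.symplecticGroup (Fin m) F) :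
    (spSL e s).1 = Matrix.reindex e e s.1 := rfl

lemma spSL_fix (e : Fin m ⊕ Fin m ≃ Fin n) (s : Matrix.symplecticGroup (Fin m) F) :
    (conjSL (reGL e (JGL m F)) * invT : MulAut (SpecialLinearGroup (Fin n) F)) (spSL e s) =
      spSL e s := by
  rw [fix_iff, spSL_coe, reGL_coe, JGL_coe]
  have h := (SymplecticGroup.mem_iff).1 s.2
  calc Matrix.reindex e e s.1 * Matrix.reindex e e (Matrix.J (Fin m) F) * (Matrix.reindex e e s.1)ᵀ
      = Matrix.reindex e e (s.1 * Matrix.J (Fin m) F * s.1ᵀ) := by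
        simp [Matrix.submatrix_mul_equiv]
    _ = _ := by rw [h]

lemma exists_spSL_of_fix (e : Fin m ⊕ Fin m ≃ Fin n) (t : SpecialLinearGroup (Fin n) F)
    (ht : (conjSL (reGL e (JGL m F)) * invT : MulAut (SpecialLinearGroup (Fin n) F)) t = t) :
    ∃ s : Matrix.symplecticGroup (Fin m) F, spSL e s = t := by
  rw [fix_iff, reGL_coe, JGL_coe] at ht
  refine ⟨⟨Matrix.reindex e.symm e.symm t.1, ?_⟩, ?_⟩
  · rw [SymplecticGroup.mem_iff]
    have h := congrArg (Matrix.reindex e.symm e.symm) ht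
    calc Matrix.reindex e.symm e.symm t.1 * Matrix.J (Fin m) F *
          (Matrix.reindex e.symm e.symm t.1)ᵀ
        = Matrix.reindex e.symm e.symm
            (t.1 * Matrix.reindex e e (Matrix.J (Fin m) F) * t.1ᵀ) := by
          simp [← Matrix.submatrix_mul_equiv _ _ _ e]
      _ = Matrix.J (Fin m) F := by
          rw [h]; simp
  · apply SL_ext
    rw [spSL_coe]
    simp

/-- the involution `-1` on `e_i, f_i`, `+1` elsewhere. -/
def invD (F : Type*) [Field F] (i : Fin m) : Matrix (Fin m ⊕ Fin m) (Fin m ⊕ Fin m) F :=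
  Matrix.fromBlocks (Matrix.diagonal fun j => if j = i then -1 else 1) 0 0
    (Matrix.diagonal fun j => if j = i then -1 else 1)

lemma invD_aux (i : Fin m) :
    (Matrix.diagonal fun j => if j = i then (-1 : F) else 1) *
      (Matrix.diagonal fun j => if j = i then (-1 : F) else 1) = 1 := by
  rw [Matrix.diagonal_mul_diagonal, ← Matrix.diagonal_one]
  congr 1
  funext j
  split_ifs <;> simp

lemma blk_mem (D : Matrix (Fin m) (Fin m) F) (hT : Dᵀ = D) (hD : D * D = 1) :
    Matrix.fromBlocks D 0 0 D ∈ Matrix.symplecticGroup (Fin m) F := by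
  rw [SymplecticGroup.mem_iff, Matrix.J, Matrix.fromBlocks_transpose,
    Matrix.fromBlocks_multiply, Matrix.fromBlocks_multiply]
  simp [hT, hD]

lemma blk_mul_self (D : Matrix (Fin m) (Fin m) F) (hD : D * D = 1) :
    Matrix.fromBlocks D 0 0 D * Matrix.fromBlocks D 0 0 D = 1 := by
  rw [Matrix.fromBlocks_multiply]
  simp [hD]

lemma invD_mem (i : Fin m) : invD F i ∈ Matrix.symplecticGroup (Fin m) F :=
  blk_mem _ (Matrix.diagonal_transpose _) (invD_aux i)

lemma invD_mul_self (i : Fin m) : invD F i * invD F i = 1 :=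
  blk_mul_self _ (invD_aux i)

/-- [P8] -/
theorem hb_S [Fintype F] (h2 : (2 : F) ≠ 0) {m : ℕ} (hm : 2 ≤ m) (e : Fin m ⊕ Fin m ≃ Fin n)
    (M : Subgroup (ProjectiveSpecialLinearGroup (Fin n) F))
    (hM : M ≤ LL (conjSL (reGL e (JGL m F)) * invT))
    (hnorm : ∀ l ∈ LL (conjSL (reGL e (JGL m F)) * invT), ∀ k ∈ M, l * k * l⁻¹ ∈ M)
    (hne : M ≠ ⊥) : 2 ∣ Nat.card M := by
  classical
  set π : Matrix.symplecticGroup (Fin m) F →* ProjectiveSpecialLinearGroup (Fin n) F :=
    (QuotientGroup.mk' (Subgroup.center (SpecialLinearGroup (Fin n) F))).comp (spSL e) with hπ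
  have hπL : ∀ s, π s ∈ LL (conjSL (reGL e (JGL m F)) * invT) := fun s =>
    mk_mem_LL (spSL_fix e s)
  have hnormal : (M.comap π).Normal := by
    constructor
    intro k hk g
    show π (g * k * g⁻¹) ∈ M
    rw [map_mul, map_mul, map_inv]
    exact hnorm _ (hπL g) _ hk
  have hcard3 : 3 ≤ Fintype.card F := by
    by_contra hlt
    have h1 : 1 < Fintype.card F := Fintype.one_lt_card
    have h3 : Fintype.card F = 2 := by omega
    apply h2
    have h4 : ((Fintype.card F : ℕ) : F) = 0 := Nat.cast_card_eq_zero F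
    rw [h3] at h4
    exact_mod_cast h4
  rcases Cfsg.Agent.Lib.Helper5.sp_normal_le_center_or (M.comap π) with hc | hc
  · exfalso
    obtain ⟨k, hk, hk1⟩ : ∃ k ∈ M, k ≠ 1 := by
      by_contra hcon
      push Not at hcon
      exact hne ((Subgroup.eq_bot_iff_forall _).2 hcon)
    obtain ⟨t, ht, rfl⟩ := mem_LL.1 (hM hk)
    obtain ⟨s, rfl⟩ := exists_spSL_of_fix e t ht
    obtain ⟨a, ha⟩ := Cfsg.Agent.Lib.Helper5.sp_center_scalar m s (hc hk)
    apply hk1
    apply mk_eq_one_of_scalar (c := a)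
    rw [spSL_coe, ha]
    ext i j
    simp [Matrix.diagonal_apply, Matrix.one_apply]
  · have htop : commutator (Matrix.symplecticGroup (Fin m) F) = ⊤ :=
      Cfsg.Agent.Lib.Helper5.sp_commutator_eq_top (by
        rcases hm.eq_or_lt with h | h
        · exact Or.inr (Or.inl ⟨h.symm, hcard3⟩)
        · exact Or.inl h)
    rw [htop] at hc
    set i0 : Fin m := ⟨0, by omega⟩
    set i1 : Fin m := ⟨1, by omega⟩
    set t : Matrix.symplecticGroup (Fin m) F := ⟨invD F i0, invD_mem i0⟩ with ht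
    have ht1 : π t ∈ M := hc (Subgroup.mem_top t)
    have ht2 : t * t = 1 := Subtype.ext (invD_mul_self i0)
    have ht3 : π t ^ 2 = 1 := by rw [sq, ← map_mul, ht2, map_one]
    have ht4 : π t ≠ 1 := by
      apply mk_ne_one_of_not_scalar
      intro c hc
      rw [spSL_coe] at hc
      have e0 := congrFun (congrFun hc (e (Sum.inl i0))) (e (Sum.inl i0))
      have e1 := congrFun (congrFun hc (e (Sum.inl i1))) (e (Sum.inl i1))
      have hne01 : i1 ≠ i0 := by simp [i0, i1, Fin.ext_iff]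
      simp [ht, invD, hne01] at e0 e1
      apply h2
      rw [← e1] at e0
      linear_combination -e0
    have ht5 : orderOf (π t) = 2 := orderOf_eq_prime ht3 ht4
    rw [← ht5]
    have := orderOf_dvd_natCard (⟨_, ht1⟩ : M)
    rwa [Subgroup.orderOf_mk] at this

end Cfsg.Agent.Lib.Helper91.LBP
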