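import Mathlib
import Cfsg.Agent.Lib.Helper74.SymAlgDefs

/-!
# Symmetric algebras, piece P1 (helper91, for S4607)
The space of trace forms of a symmetric algebra has dimension at most that of the centre.
-/

set_option autoImplicit false

namespace Cfsg.Agent.Lib.Helper91.SymAlgP1

open Cfsg.Agent.Lib.Helper74.SymAlg Module

variable {F A : Type*} [Field F] [Ring A] [Algebra F A] [FiniteDimensional F A]

theorem P1 {lam : A →ₗ[F] F} (h : IsSymForm lam) :
    finrank F (traceForms F A) ≤ finrank F (Subalgebra.center F A) := by
  let Φ : A →ₗ[F] Module.Dual F A := (LinearMap.mul F A).compr₂ lam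
  have hΦ : ∀ x b, Φ x b = lam (x * b) := fun x b => rfl
  have hinj : Function.Injective Φ := by
    rw [← LinearMap.ker_eq_bot, LinearMap.ker_eq_bot']
    intro x hx
    exact h.nondeg x (fun b => by rw [← hΦ, hx]; rfl)
  have hsurj : Function.Surjective Φ :=
    (LinearMap.injective_iff_surjective_of_finrank_eq_finrank
      (Subspace.dual_finrank_eq).symm).mp hinj
  have hle : (traceForms F A) ≤ (Subalgebra.toSubmodule (Subalgebra.center F A)).map Φ := by
    intro f hf
    obtain ⟨x, rfl⟩ := hsurj f
    refine ⟨x, ?_, rfl⟩
    change x ∈ Subalgebra.center F A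
    rw [Subalgebra.mem_center_iff]
    intro a
    have hz : a * x - x * a = 0 := by
      apply h.nondeg
      intro b
      have h1 : lam (x * (a * b)) = lam (x * (b * a)) := hf a b
      have h2 : lam (a * (x * b)) = lam ((x * b) * a) := h.symm _ _
      rw [sub_mul, map_sub, mul_assoc, mul_assoc, h2, h1, mul_assoc, sub_self]
    exact sub_eq_zero.mp hz
  calc finrank F (traceForms F A)
      ≤ finrank F ((Subalgebra.toSubmodule (Subalgebra.center F A)).map Φ) :=
        Submodule.finrank_mono hle
    _ ≤ finrank F (Subalgebra.toSubmodule (Subalgebra.center F A)) := Submodule.finrank_map_le _ _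
    _ = finrank F (Subalgebra.center F A) := rfl

end Cfsg.Agent.Lib.Helper91.SymAlgP1
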