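import Mathlib
import Cfsg.Agent.Lib.Helper74.SymAlgDefs
import Cfsg.Agent.Lib.Helper91.SymAlgP1

/-!
# Symmetric algebras, piece P2 (helper91, for S4607)
A symmetric algebra over an algebraically closed field whose centre is local of dimension 2
has `A / J = Mat_n(F)` and `J ≠ 0`.
-/

set_option autoImplicit false

namespace Cfsg.Agent.Lib.Helper91.SymAlgP2

open Cfsg.Agent.Lib.Helper74.SymAlg Module

variable {F A : Type*} [Field F] [Ring A] [Algebra F A] [FiniteDimensional F A]

theorem P2 [IsAlgClosed F] {lam : A →ₗ[F] F} (h : IsSymForm lam)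
    (hZ : finrank F (Subalgebra.center F A) = 2)
    (hprim : ∀ c ∈ Subalgebra.center F A, c * c = c → c = 0 ∨ c = 1) :
    ∃ (n : ℕ) (φ : A →ₐ[F] Matrix (Fin n) (Fin n) F), 0 < n ∧ Function.Surjective φ ∧
      (∀ x, φ x = 0 ↔ x ∈ Ring.jacobson A) ∧ ∃ x, φ x = 0 ∧ x ≠ 0 := by
  have hart : IsArtinianRing A := IsArtinianRing.of_finite F A
  obtain ⟨l, d, hd, ⟨e⟩⟩ :=
    IsSemisimpleRing.exists_algEquiv_pi_matrix_of_isAlgClosed F (A ⧸ Ring.jacobson A)
  let ψ : A →ₐ[F] (Π i : Fin l, Matrix (Fin (d i)) (Fin (d i)) F) :=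
    e.toAlgHom.comp (Ideal.Quotient.mkₐ F (Ring.jacobson A))
  have hψs : Function.Surjective ψ := e.surjective.comp Ideal.Quotient.mk_surjective
  have hψk : ∀ x, ψ x = 0 ↔ x ∈ Ring.jacobson A := by
    intro x
    change e (Ideal.Quotient.mk _ x) = 0 ↔ _
    rw [map_eq_zero_iff e e.injective, Ideal.Quotient.eq_zero_iff_mem]
  have hnt : Nontrivial A := by
    by_contra hcon
    rw [not_nontrivial_iff_subsingleton] at hcon
    have : finrank F (Subalgebra.center F A) = 0 := finrank_zero_of_subsingleton
    omega
  have h1J : (1 : A) ∉ Ring.jacobson A :=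
    fun h1 => (Ring.jacobson_lt_top A).ne ((Ideal.eq_top_iff_one _).mpr h1)
  have hl0 : l ≠ 0 := by
    rintro rfl
    exact h1J ((hψk 1).mp (Subsingleton.elim _ _))
  have hone : ∀ j : Fin l, (1 : Matrix (Fin (d j)) (Fin (d j)) F) ≠ 0 := by
    intro j hj
    have := congrFun (congrFun hj 0) 0
    simp at this
  -- the case `l = 1`
  have key : ∀ (i0 : Fin l), (∀ j : Fin l, j = i0) → (∃ x, x ∈ Ring.jacobson A ∧ x ≠ 0) →
      ∃ (n : ℕ) (φ : A →ₐ[F] Matrix (Fin n) (Fin n) F), 0 < n ∧ Function.Surjective φ ∧
      (∀ x, φ x = 0 ↔ x ∈ Ring.jacobson A) ∧ ∃ x, φ x = 0 ∧ x ≠ 0 := by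
    intro i0 hi0 hx
    have hk : ∀ x, ψ x i0 = 0 ↔ x ∈ Ring.jacobson A := by
      intro x
      rw [← hψk]
      constructor
      · intro hx
        funext j
        rw [hi0 j, hx]; rfl
      · intro hx
        rw [hx]; rfl
    refine ⟨d i0, (Pi.evalAlgHom F _ i0).comp ψ, Nat.pos_of_ne_zero (hd i0).out, ?_, hk, ?_⟩
    · intro M
      obtain ⟨m, hm⟩ := hψs (Pi.single i0 M)
      refine ⟨m, ?_⟩
      change ψ m i0 = M
      rw [hm, Pi.single_eq_same]
    · obtain ⟨x, hx, hx0⟩ := hx
      exact ⟨x, (hk x).mpr hx, hx0⟩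
  -- the radical is nonzero
  have hJne : ∃ x, x ∈ Ring.jacobson A ∧ x ≠ 0 := by
    by_contra hcon
    push Not at hcon
    have hinj : Function.Injective ψ :=
      (injective_iff_map_eq_zero ψ).mpr (fun x hx => hcon x ((hψk x).mp hx))
    have hsingle : ∀ i : Fin l, (Pi.single i 1 : Π i : Fin l, Matrix (Fin (d i)) (Fin (d i)) F) = 1 := by
      intro i
      obtain ⟨c, hc⟩ := hψs (Pi.single i 1)
      have hcc : c ∈ Subalgebra.center F A := by
        rw [Subalgebra.mem_center_iff]
        intro a
        apply hinj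
        rw [map_mul, map_mul, hc]
        funext j
        by_cases hj : j = i
        · subst hj; simp
        · simp [hj]
      have hci : c * c = c := by
        apply hinj
        rw [map_mul, hc]
        funext j
        by_cases hj : j = i
        · subst hj; simp
        · simp [hj]
      rcases hprim c hcc hci with h0 | h1
      · exfalso
        rw [h0, map_zero] at hc
        have := congrFun hc i
        rw [Pi.single_eq_same] at this
        exact hone i this.symm
      · rw [← hc, h1, map_one]
    have hsub : ∀ i j : Fin l, j = i := by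
      intro i j
      by_contra hj
      have := congrFun (hsingle i) j
      rw [Pi.single_eq_of_ne hj] at this
      exact hone j this.symm
    let i0 : Fin l := ⟨0, Nat.pos_of_ne_zero hl0⟩
    have hbot : Subalgebra.center F A = ⊥ := by
      rw [eq_bot_iff]
      intro x hx
      rw [Subalgebra.mem_center_iff] at hx
      have h1 : ψ x i0 ∈ Subalgebra.center F (Matrix (Fin (d i0)) (Fin (d i0)) F) := by
        rw [Subalgebra.mem_center_iff]
        intro M
        obtain ⟨m, hm⟩ := hψs (Pi.single i0 M)
        have := congrFun (congrArg ψ (hx m)) i0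
        rw [map_mul, map_mul, hm] at this
        simpa using this
      rw [Algebra.IsCentral.mem_center_iff] at h1
      obtain ⟨a, ha⟩ := h1
      rw [Algebra.mem_bot]
      refine ⟨a, hinj ?_⟩
      funext j
      rw [hsub i0 j, ha, AlgHom.commutes]
      rfl
    rw [hbot, Subalgebra.finrank_bot] at hZ
    omega
  obtain ⟨x0, hx0, hx0ne⟩ := hJne
  obtain ⟨b, hb⟩ : ∃ b, lam (x0 * b) ≠ 0 := by
    by_contra hcon
    push Not at hcon
    exact hx0ne (h.nondeg x0 hcon)
  have hy0 : ψ (x0 * b) = 0 := by rw [map_mul, (hψk x0).mpr hx0, zero_mul]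
  let t : Fin l → A →ₗ[F] F := fun i =>
    (Matrix.traceLinearMap (Fin (d i)) F F) ∘ₗ (LinearMap.proj i) ∘ₗ ψ.toLinearMap
  have ht : ∀ i x, t i x = Matrix.trace (ψ x i) := fun i x => rfl
  have htm : ∀ i, t i ∈ traceForms F A := by
    intro i a b
    rw [ht, ht, map_mul, map_mul, Pi.mul_apply, Pi.mul_apply, Matrix.trace_mul_comm]
  choose a ha using fun i : Fin l => hψs (Pi.single i (Matrix.single 0 0 1))
  let v : Option (Fin l) → traceForms F A := fun o => match o with
    | none => ⟨lam, h.symm⟩
    | some i => ⟨t i, htm i⟩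
  let v' : Option (Fin l) → Module.Dual F A := fun o => match o with
    | none => lam
    | some i => t i
  have hli' : LinearIndependent F v' := by
    refine Fintype.linearIndependent_iff.mpr ?_
    intro g hg
    rw [Fintype.sum_option] at hg
    have hg' : ∀ x, g none * lam x + ∑ i, g (some i) * t i x = 0 := by
      intro x
      have := congrArg (fun f : Module.Dual F A => f x) hg
      simpa [v'] using this
    have h0 : g none = 0 := by
      have := hg' (x0 * b)
      simp only [ht, hy0] at this
      simpa [hb] using this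
    intro o
    cases o with
    | none => exact h0
    | some i =>
      have := hg' (a i)
      rw [h0, zero_mul, zero_add, Finset.sum_eq_single i] at this
      · rw [ht, ha, Pi.single_eq_same, Matrix.trace_single_eq_same, mul_one] at this
        exact this
      · intro j _ hj
        rw [ht, ha, Pi.single_eq_of_ne hj]
        simp
      · simp
  have hli : LinearIndependent F v := by
    apply LinearIndependent.of_comp (traceForms F A).subtype
    convert hli' using 1
    funext o
    cases o <;> rfl
  have hcard := hli.fintype_card_le_finrank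
  rw [Fintype.card_option, Fintype.card_fin] at hcard
  have hP1 := SymAlgP1.P1 h
  have hl1 : l = 1 := by omega
  subst hl1
  exact key 0 (fun j => Subsingleton.elim _ _) ⟨x0, hx0, hx0ne⟩

end Cfsg.Agent.Lib.Helper91.SymAlgP2
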