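import Mathlib
import Cfsg.Agent.Lib.Helper74.SymAlgDefs

/-!
# Symmetric algebras, piece P4 (helper91, for S4607)
A symmetric algebra `A` with `A / J = Mat_n(F)`, `J ≠ 0`, `J ^ 2 = 0` has dimension `2 n ^ 2`.
-/

set_option autoImplicit false

namespace Cfsg.Agent.Lib.Helper91.SymAlgP4

open Cfsg.Agent.Lib.Helper74.SymAlg Module

variable {F A : Type*} [Field F] [Ring A] [Algebra F A] [FiniteDimensional F A]

/-- The version without the (unneeded) hypothesis on the Jacobson radical. -/
theorem P4' {lam : A →ₗ[F] F} (h : IsSymForm lam) {n : ℕ}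
    (φ : A →ₐ[F] Matrix (Fin n) (Fin n) F) (hφ : Function.Surjective φ)
    (hne : ∃ x, φ x = 0 ∧ x ≠ 0)
    (hsq : ∀ x y, φ x = 0 → φ y = 0 → x * y = 0) : finrank F A = 2 * n ^ 2 := by
  let B : LinearMap.BilinForm F A := (LinearMap.mul F A).compr₂ lam
  have hB : ∀ x y, B x y = lam (x * y) := fun x y => rfl
  have hnd : B.Nondegenerate := by
    refine ⟨fun x hx => h.nondeg x hx, fun y hy => h.nondeg y (fun b => ?_)⟩
    rw [h.symm]; exact hy b
  let J : Submodule F A := LinearMap.ker φ.toLinearMap
  have hJmem : ∀ x, x ∈ J ↔ φ x = 0 := fun x => Iff.rfl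
  have hperp : B.orthogonal J = J := by
    apply le_antisymm
    · intro x hx
      rw [LinearMap.BilinForm.mem_orthogonal_iff] at hx
      -- `x * j = 0` for all `j ∈ J`
      have hxJ : ∀ j, φ j = 0 → x * j = 0 := by
        intro j hj
        apply h.nondeg
        intro b
        rw [mul_assoc, h.symm]
        apply hx (j * b)
        rw [hJmem, map_mul, hj, zero_mul]
      rw [hJmem]
      by_contra hne0
      obtain ⟨a, b, hab⟩ : ∃ a b, (φ x) a b ≠ 0 := by
        by_contra hcon
        push Not at hcon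
        exact hne0 (Matrix.ext hcon)
      choose p hp using fun k : Fin n => hφ (Matrix.single k a (1 : F))
      choose q hq using fun k : Fin n => hφ (Matrix.single b k (1 : F))
      set c : F := (φ x) a b with hc
      let y : A := ∑ k, p k * x * q k
      have hy : φ y = c • (1 : Matrix (Fin n) (Fin n) F) := by
        simp only [y, map_sum, map_mul, hp, hq, Matrix.single_mul_mul_single, one_mul, mul_one]
        rw [Matrix.sum_single_eq_diagonal, ← hc]
        ext i j
        simp [Matrix.diagonal_apply, Matrix.one_apply]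
      have hyJ : ∀ j, φ j = 0 → y * j = 0 := by
        intro j hj
        simp only [y, Finset.sum_mul]
        apply Finset.sum_eq_zero
        intro k _
        rw [mul_assoc, mul_assoc, hxJ (q k * j) (by rw [map_mul, hj, mul_zero]), mul_zero]
      obtain ⟨j, hj, hj0⟩ := hne
      have hz : φ (c⁻¹ • y - 1) = 0 := by
        rw [map_sub, map_smul, hy, map_one, smul_smul, inv_mul_cancel₀ hab, one_smul, sub_self]
      have h1 := hsq _ j hz hj
      rw [sub_mul, smul_mul_assoc, hyJ j hj, smul_zero, one_mul, zero_sub, neg_eq_zero] at h1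
      exact hj0 h1
    · intro x hx
      rw [LinearMap.BilinForm.mem_orthogonal_iff]
      intro j hj
      rw [hB, hsq j x hj hx, map_zero]
  have h1 := LinearMap.BilinForm.finrank_orthogonal hnd J
  rw [hperp] at h1
  have h2 := LinearMap.finrank_range_add_finrank_ker φ.toLinearMap
  have h3 : LinearMap.range φ.toLinearMap = ⊤ := LinearMap.range_eq_top.mpr hφ
  rw [h3, finrank_top, Module.finrank_matrix, finrank_self] at h2
  simp only [Fintype.card_fin, mul_one] at h2
  have h4 : finrank F J = finrank F (LinearMap.ker φ.toLinearMap) := rfl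
  rw [pow_two]
  omega

theorem P4 {lam : A →ₗ[F] F} (h : IsSymForm lam) {n : ℕ}
    (φ : A →ₐ[F] Matrix (Fin n) (Fin n) F) (hφ : Function.Surjective φ)
    (_hJ : ∀ x, φ x = 0 ↔ x ∈ Ring.jacobson A) (hne : ∃ x, φ x = 0 ∧ x ≠ 0)
    (hsq : ∀ x y, φ x = 0 → φ y = 0 → x * y = 0) : finrank F A = 2 * n ^ 2 :=
  P4' h φ hφ hne hsq

end Cfsg.Agent.Lib.Helper91.SymAlgP4
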