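import Cfsg.Agent.Lib.Helper80.LBP.Defs
import Cfsg.Agent.Lib.Helper1.Tools

set_option autoImplicit false

/-!
# S2686 farm, piece P3 (core): normal subgroups of `LL (conjSL A * invT)`, `A` symmetric
-/

namespace Cfsg.Agent.Lib.Helper91.LBP

open Matrix Cfsg.Agent.Lib.Helper43.PA Cfsg.Agent.Lib.Helper44 Cfsg.Agent.Lib.Helper80.LBP

variable {n : ℕ} {F : Type*} [Field F]

lemma fix_iff (A : GL (Fin n) F) (s : SpecialLinearGroup (Fin n) F) :
    (conjSL A * invT : MulAut (SpecialLinearGroup (Fin n) F)) s = s ↔ s.1 * A.1 * s.1ᵀ = A.1 := by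
  have h1 : ((conjSL A * invT : MulAut (SpecialLinearGroup (Fin n) F)) s).1 = A.1 * (s⁻¹).1ᵀ * (A⁻¹ : GL (Fin n) F).1 := rfl
  have e1 : s.1 * (s⁻¹).1 = 1 := congrArg Subtype.val (mul_inv_cancel s)
  have e2 : (s⁻¹).1 * s.1 = 1 := congrArg Subtype.val (inv_mul_cancel s)
  have hs : (s⁻¹).1ᵀ * s.1ᵀ = 1 := by
    rw [← transpose_mul, e1, transpose_one]
  have hs' : s.1ᵀ * (s⁻¹).1ᵀ = 1 := by
    rw [← transpose_mul, e2, transpose_one]
  have hA : (A⁻¹ : GL (Fin n) F).1 * A.1 = 1 := by rw [← Units.val_mul, inv_mul_cancel]; rfl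
  have hA' : A.1 * (A⁻¹ : GL (Fin n) F).1 = 1 := by rw [← Units.val_mul, mul_inv_cancel]; rfl
  constructor
  · intro h
    have h2 : A.1 * (s⁻¹).1ᵀ * (A⁻¹ : GL (Fin n) F).1 = s.1 := by rw [← h1, h]
    calc s.1 * A.1 * s.1ᵀ = (A.1 * (s⁻¹).1ᵀ * (A⁻¹ : GL (Fin n) F).1) * A.1 * s.1ᵀ := by rw [h2]
      _ = A.1 * ((s⁻¹).1ᵀ * ((A⁻¹ : GL (Fin n) F).1 * A.1) * s.1ᵀ) := by
          simp only [Matrix.mul_assoc]
      _ = A.1 := by rw [hA, Matrix.mul_one, hs, Matrix.mul_one]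
  · intro h
    apply Subtype.ext
    rw [h1]
    calc A.1 * (s⁻¹).1ᵀ * (A⁻¹ : GL (Fin n) F).1
        = (s.1 * A.1 * s.1ᵀ) * (s⁻¹).1ᵀ * (A⁻¹ : GL (Fin n) F).1 := by rw [h]
      _ = s.1 * (A.1 * (s.1ᵀ * (s⁻¹).1ᵀ) * (A⁻¹ : GL (Fin n) F).1) := by
          simp only [Matrix.mul_assoc]
      _ = s.1 := by rw [hs', Matrix.mul_one, hA', Matrix.mul_one]

lemma congr_inv_iff {A B : Matrix (Fin n) (Fin n) F} (hAB : A * B = 1) (hBA : B * A = 1)
    (x : Matrix (Fin n) (Fin n) F) : x * A * xᵀ = A ↔ xᵀ * B * x = B := by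
  constructor
  · intro h
    have h1 : (x * A) * (xᵀ * B) = 1 := by
      rw [← Matrix.mul_assoc, h, hAB]
    have h2 : (xᵀ * B) * (x * A) = 1 := mul_eq_one_comm.1 h1
    calc xᵀ * B * x = (xᵀ * B) * (x * A) * B := by
          rw [Matrix.mul_assoc (xᵀ * B) (x * A) B, Matrix.mul_assoc x A B, hAB, Matrix.mul_one]
      _ = B := by rw [h2, Matrix.one_mul]
  · intro h
    have h1 : (A * xᵀ * B) * x = 1 := by
      calc (A * xᵀ * B) * x = A * (xᵀ * B * x) := by simp only [Matrix.mul_assoc]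
        _ = 1 := by rw [h, hAB]
    have h2 : x * (A * xᵀ * B) = 1 := mul_eq_one_comm.1 h1
    calc x * A * xᵀ = x * (A * xᵀ * B) * A := by
          simp only [Matrix.mul_assoc]
          rw [hBA, Matrix.mul_one]
      _ = A := by rw [h2, Matrix.one_mul]

/-- the orthogonal group of `G` inside `GL_n`. -/
def OG (G : Matrix (Fin n) (Fin n) F) : Subgroup (GL (Fin n) F) where
  carrier := {x | x.1ᵀ * G * x.1 = G}
  one_mem' := by simp
  mul_mem' := by
    intro x y hx hy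
    have hx' : x.1ᵀ * G * x.1 = G := hx
    have hy' : y.1ᵀ * G * y.1 = G := hy
    show (x * y).1ᵀ * G * (x * y).1 = G
    rw [Units.val_mul, transpose_mul]
    calc y.1ᵀ * x.1ᵀ * G * (x.1 * y.1) = y.1ᵀ * (x.1ᵀ * G * x.1) * y.1 := by
          simp only [Matrix.mul_assoc]
      _ = G := by rw [hx', hy']
  inv_mem' := by
    intro x hx
    have hx' : x.1ᵀ * G * x.1 = G := hx
    have h1 : x.1 * (x⁻¹ : GL (Fin n) F).1 = 1 := by rw [← Units.val_mul, mul_inv_cancel]; rfl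
    have h2 : (x⁻¹ : GL (Fin n) F).1ᵀ * x.1ᵀ = 1 := by rw [← transpose_mul, h1, transpose_one]
    show (x⁻¹ : GL (Fin n) F).1ᵀ * G * (x⁻¹ : GL (Fin n) F).1 = G
    calc (x⁻¹ : GL (Fin n) F).1ᵀ * G * (x⁻¹ : GL (Fin n) F).1
        = (x⁻¹ : GL (Fin n) F).1ᵀ * (x.1ᵀ * G * x.1) * (x⁻¹ : GL (Fin n) F).1 := by rw [hx']
      _ = ((x⁻¹ : GL (Fin n) F).1ᵀ * x.1ᵀ) * G * (x.1 * (x⁻¹ : GL (Fin n) F).1) := by
          simp only [Matrix.mul_assoc]
      _ = G := by rw [h1, h2, Matrix.one_mul, Matrix.mul_one]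

lemma mem_OG {G : Matrix (Fin n) (Fin n) F} {x : GL (Fin n) F} :
    x ∈ OG G ↔ x.1ᵀ * G * x.1 = G := Iff.rfl

lemma det_mul_self_of_mem_OG {G : Matrix (Fin n) (Fin n) F} (hdet : G.det ≠ 0) {x : GL (Fin n) F}
    (hx : x ∈ OG G) : x.1.det * x.1.det = 1 := by
  have h := congrArg Matrix.det (mem_OG.1 hx)
  rw [det_mul, det_mul, det_transpose] at h
  have h2 : (x.1.det * x.1.det) * G.det = 1 * G.det := by linear_combination h
  exact mul_right_cancel₀ hdet h2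

lemma mem_LL_iff (A : GL (Fin n) F) {k : ProjectiveSpecialLinearGroup (Fin n) F} :
    k ∈ LL (conjSL A * invT) ↔ ∃ s : SpecialLinearGroup (Fin n) F,
      SpecialLinearGroup.toGL s ∈ OG (A⁻¹ : GL (Fin n) F).1 ∧ QuotientGroup.mk s = k := by
  have hA : (A⁻¹ : GL (Fin n) F).1 * A.1 = 1 := by rw [← Units.val_mul, inv_mul_cancel]; rfl
  have hA' : A.1 * (A⁻¹ : GL (Fin n) F).1 = 1 := by rw [← Units.val_mul, mul_inv_cancel]; rfl
  rw [mem_LL]
  constructor
  · rintro ⟨s, hs, rfl⟩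
    exact ⟨s, (congr_inv_iff hA' hA s.1).1 ((fix_iff A s).1 hs), rfl⟩
  · rintro ⟨s, hs, rfl⟩
    exact ⟨s, (fix_iff A s).2 ((congr_inv_iff hA' hA s.1).2 hs), rfl⟩

lemma toGL_conjSL (x : GL (Fin n) F) (s : SpecialLinearGroup (Fin n) F) :
    SpecialLinearGroup.toGL (conjSL x s) = x * SpecialLinearGroup.toGL s * x⁻¹ := by
  apply Units.ext
  rfl

lemma cG_mem_LL (A : GL (Fin n) F) {x : GL (Fin n) F} (hx : x ∈ OG (A⁻¹ : GL (Fin n) F).1)
    {k : ProjectiveSpecialLinearGroup (Fin n) F} (hk : k ∈ LL (conjSL A * invT)) :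
    cG x k ∈ LL (conjSL A * invT) := by
  obtain ⟨s, hs, rfl⟩ := (mem_LL_iff A).1 hk
  refine (mem_LL_iff A).2 ⟨conjSL x s, ?_, rfl⟩
  rw [toGL_conjSL]
  exact Subgroup.mul_mem _ (Subgroup.mul_mem _ hx hs) (Subgroup.inv_mem _ hx)

/-- an element of `O(G)` of determinant one acts on `PSL_n` as an element of `L`. -/
lemma cG_eq_conj (A : GL (Fin n) F) {x : GL (Fin n) F} (hx : x ∈ OG (A⁻¹ : GL (Fin n) F).1)
    (hd : x.1.det = 1) : ∃ l ∈ LL (conjSL A * invT), cG x = MulAut.conj l := by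
  have h1 : SpecialLinearGroup.toGL (mkSL x.1 hd) = x := by
    apply Units.ext
    rfl
  refine ⟨QuotientGroup.mk (mkSL x.1 hd),
    (mem_LL_iff A).2 ⟨_, by rw [h1]; exact hx, rfl⟩, ?_⟩
  rw [conj_mk_eq_cG, h1]

lemma mk_ne_one_of_not_scalar {s : SpecialLinearGroup (Fin n) F}
    (h : ∀ c : F, s.1 ≠ c • (1 : Matrix (Fin n) (Fin n) F)) :
    (QuotientGroup.mk s : ProjectiveSpecialLinearGroup (Fin n) F) ≠ 1 := by
  intro h1
  rw [QuotientGroup.eq_one_iff, Matrix.SpecialLinearGroup.mem_center_iff] at h1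
  obtain ⟨r, -, hr⟩ := h1
  apply h r
  rw [← hr]
  ext i j
  simp [Matrix.one_apply, Matrix.diagonal_apply]

lemma mk_eq_one_of_scalar {s : SpecialLinearGroup (Fin n) F} {c : F}
    (h : s.1 = c • (1 : Matrix (Fin n) (Fin n) F)) :
    (QuotientGroup.mk s : ProjectiveSpecialLinearGroup (Fin n) F) = 1 := by
  rw [QuotientGroup.eq_one_iff, Matrix.SpecialLinearGroup.mem_center_iff]
  refine ⟨c, ?_, ?_⟩
  · have h1 := s.2
    rw [h, det_smul, det_one, mul_one] at h1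
    exact h1
  · rw [h]
    ext i j
    simp [Matrix.one_apply, Matrix.diagonal_apply]

/-- the statement of piece P2 for `n`, `F`. -/
def P2Statement (n : ℕ) (F : Type*) [Field F] : Prop :=
  ∀ (G : Matrix (Fin n) (Fin n) F), Gᵀ = G → G.det ≠ 0 →
    ∀ (H : Subgroup (GL (Fin n) F)), (∀ g ∈ H, g.1ᵀ * G * g.1 = G) →
    (∀ x : GL (Fin n) F, x.1ᵀ * G * x.1 = G → ∀ g ∈ H, x * g * x⁻¹ ∈ H) →
    (∃ g ∈ H, ∀ c : F, g.1 ≠ c • (1 : Matrix (Fin n) (Fin n) F)) →
    ∃ t ∈ H, t * t = 1 ∧ t.1.det = 1 ∧ ∀ c : F, t.1 ≠ c • (1 : Matrix (Fin n) (Fin n) F)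

theorem hb_O_core [Fintype F] (hP2 : P2Statement n F) (A : GL (Fin n) F) (hA : A.1ᵀ = A.1)
    (M : Subgroup (ProjectiveSpecialLinearGroup (Fin n) F)) (hM : M ≤ LL (conjSL A * invT))
    (hnorm : ∀ l ∈ LL (conjSL A * invT), ∀ k ∈ M, l * k * l⁻¹ ∈ M) (hne : M ≠ ⊥) :
    2 ∣ Nat.card M := by
  classical
  by_contra hodd
  set G : Matrix (Fin n) (Fin n) F := (A⁻¹ : GL (Fin n) F).1 with hGdef
  set L := LL (conjSL A * invT) with hL
  have hGA : G * A.1 = 1 := by rw [hGdef, ← Units.val_mul, inv_mul_cancel]; rfl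
  have hAG : A.1 * G = 1 := by rw [hGdef, ← Units.val_mul, mul_inv_cancel]; rfl
  have hGT : Gᵀ = G := by
    have h1 : Gᵀ * A.1 = 1 := by
      rw [← hA, ← transpose_mul, hAG, transpose_one]
    calc Gᵀ = Gᵀ * (A.1 * G) := by rw [hAG, Matrix.mul_one]
      _ = G := by rw [← Matrix.mul_assoc, h1, Matrix.one_mul]
  have hGdet : G.det ≠ 0 := by
    intro h0
    have := congrArg Matrix.det hGA
    rw [det_mul, h0, zero_mul, det_one] at this
    exact zero_ne_one this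
  -- the coset representative
  obtain ⟨x0, hx0, hx0d⟩ : ∃ x0 ∈ OG G, ∀ x ∈ OG G, x.1.det = 1 ∨
      ((x * x0⁻¹).1.det = 1 ∧ (x * x0).1.det = 1) := by
    by_cases hall : ∀ x ∈ OG G, x.1.det = 1
    · exact ⟨1, Subgroup.one_mem _, fun x hx => Or.inl (hall x hx)⟩
    · push Not at hall
      obtain ⟨x0, hx0, hd0⟩ := hall
      have hm1 : ∀ x ∈ OG G, x.1.det ≠ 1 → x.1.det = -1 := by
        intro x hx hd
        have h1 := det_mul_self_of_mem_OG hGdet hx
        have h2 : (x.1.det - 1) * (x.1.det + 1) = 0 := by linear_combination h1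
        rcases mul_eq_zero.1 h2 with h | h
        · exact absurd (sub_eq_zero.1 h) hd
        · exact eq_neg_of_add_eq_zero_left h
      refine ⟨x0, hx0, fun x hx => ?_⟩
      by_cases hd : x.1.det = 1
      · exact Or.inl hd
      · right
        have h1 := hm1 x hx hd
        have h2 := hm1 x0 hx0 hd0
        have h3 : (x0⁻¹ : GL (Fin n) F).1.det = -1 := by
          have h4 : (x0⁻¹ : GL (Fin n) F).1.det * x0.1.det = 1 := by
            rw [← det_mul, ← Units.val_mul, inv_mul_cancel]; simp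
          rw [h2] at h4
          linear_combination -h4
        constructor
        · rw [Units.val_mul, det_mul, h1, h3]; ring
        · rw [Units.val_mul, det_mul, h1, h2]; ring
  -- conjugation by determinant one elements
  have hM1 : ∀ (N : Subgroup (ProjectiveSpecialLinearGroup (Fin n) F)),
      (∀ l ∈ L, ∀ k ∈ N, l * k * l⁻¹ ∈ N) → ∀ x ∈ OG G, x.1.det = 1 → ∀ k ∈ N, cG x k ∈ N := by
    intro N hN x hx hd k hk
    obtain ⟨l, hl, hxl⟩ := cG_eq_conj A hx hd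
    rw [hxl, MulAut.conj_apply]
    exact hN l hl k hk
  set M' : Subgroup (ProjectiveSpecialLinearGroup (Fin n) F) := M.map (cG x0).toMonoidHom with hM'
  have hM'L : M' ≤ L := by
    rintro _ ⟨k, hk, rfl⟩
    exact cG_mem_LL A hx0 (hM hk)
  have hM'norm : ∀ l ∈ L, ∀ k ∈ M', l * k * l⁻¹ ∈ M' := by
    rintro l hl _ ⟨k, hk, rfl⟩
    refine ⟨cG (x0⁻¹) l * k * (cG (x0⁻¹) l)⁻¹,
      hnorm _ (cG_mem_LL A (Subgroup.inv_mem _ hx0) hl) k hk, ?_⟩
    have h1 : cG x0 (cG (x0⁻¹) l) = l := by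
      rw [← MulAut.mul_apply, ← map_mul, mul_inv_cancel, map_one]; rfl
    show cG x0 (cG (x0⁻¹) l * k * (cG (x0⁻¹) l)⁻¹) = l * cG x0 k * l⁻¹
    generalize cG (x0⁻¹) l = y at h1
    rw [map_mul, map_mul, map_inv, h1]
  set Ms : Subgroup (ProjectiveSpecialLinearGroup (Fin n) F) := M ⊔ M' with hMs
  have hcardM' : Nat.card M' = Nat.card M :=
    Subgroup.card_map_of_injective (cG x0).injective
  have hMsodd : ¬ 2 ∣ Nat.card Ms := by
    intro h2
    have h3 : Nat.card Ms ∣ Nat.card M * Nat.card M' := by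
      apply Cfsg.Agent.Lib.Helper1.card_sup_dvd
      intro k hk
      rw [Subgroup.mem_normalizer_iff]
      intro y
      constructor
      · intro hy
        exact hM'norm k (hM hk) y hy
      · intro hy
        have := hM'norm k⁻¹ (Subgroup.inv_mem _ (hM hk)) _ hy
        simpa [mul_assoc] using this
    rw [hcardM'] at h3
    rcases (Nat.prime_two.dvd_mul).1 (h2.trans h3) with h | h <;> exact hodd h
  have hMsinv : ∀ x ∈ OG G, ∀ k ∈ Ms, cG x k ∈ Ms := by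
    intro x hx k hk
    have h1 : Ms.map (cG x).toMonoidHom ≤ Ms := by
      rw [hMs, Subgroup.map_sup, sup_le_iff]
      rcases hx0d x hx with hd | ⟨hd1, hd2⟩
      · constructor
        · rintro _ ⟨y, hy, rfl⟩
          exact Subgroup.mem_sup_left (hM1 M hnorm x hx hd y hy)
        · rintro _ ⟨y, hy, rfl⟩
          exact Subgroup.mem_sup_right (hM1 M' hM'norm x hx hd y hy)
      · constructor
        · rintro _ ⟨y, hy, rfl⟩
          apply Subgroup.mem_sup_right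
          have h2 : cG x y = cG (x * x0⁻¹) (cG x0 y) := by
            rw [← MulAut.mul_apply, ← map_mul, inv_mul_cancel_right]
          show cG x y ∈ M'
          rw [h2]
          exact hM1 M' hM'norm _ (Subgroup.mul_mem _ hx (Subgroup.inv_mem _ hx0)) hd1 _
            ⟨y, hy, rfl⟩
        · rintro _ ⟨_, ⟨y, hy, rfl⟩, rfl⟩
          apply Subgroup.mem_sup_left
          show cG x (cG x0 y) ∈ M
          rw [← MulAut.mul_apply, ← map_mul]
          exact hM1 M hnorm _ (Subgroup.mul_mem _ hx hx0) hd2 y hy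
    exact h1 ⟨k, hk, rfl⟩
  -- the subgroup of `GL_n`
  set H : Subgroup (GL (Fin n) F) :=
    (((OG G).comap SpecialLinearGroup.toGL) ⊓
      Ms.comap (QuotientGroup.mk' (Subgroup.center (SpecialLinearGroup (Fin n) F)))).map
        SpecialLinearGroup.toGL with hH
  obtain ⟨t, ht, htt, -, htns⟩ := hP2 G hGT hGdet H
    (by
      rintro _ ⟨s, ⟨hs, -⟩, rfl⟩
      exact hs)
    (by
      rintro x hx _ ⟨s, ⟨hs1, hs2⟩, rfl⟩
      refine ⟨conjSL x s, ⟨?_, ?_⟩, toGL_conjSL x s⟩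
      · show SpecialLinearGroup.toGL (conjSL x s) ∈ OG G
        rw [toGL_conjSL]
        exact Subgroup.mul_mem _ (Subgroup.mul_mem _ hx hs1) (Subgroup.inv_mem _ hx)
      · exact hMsinv x hx _ hs2)
    (by
      obtain ⟨k, hk, hk1⟩ : ∃ k ∈ M, k ≠ 1 := by
        by_contra hcon
        push Not at hcon
        exact hne ((Subgroup.eq_bot_iff_forall _).2 hcon)
      obtain ⟨s, hs, rfl⟩ := (mem_LL_iff A).1 (hM hk)
      refine ⟨SpecialLinearGroup.toGL s, ⟨s, ⟨hs, Subgroup.mem_sup_left hk⟩, rfl⟩, ?_⟩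
      intro c hc
      exact hk1 (mk_eq_one_of_scalar hc))
  obtain ⟨s, ⟨-, hs2⟩, rfl⟩ := ht
  have hs3 : (QuotientGroup.mk s : ProjectiveSpecialLinearGroup (Fin n) F) ∈ Ms := hs2
  have hs4 : (QuotientGroup.mk s : ProjectiveSpecialLinearGroup (Fin n) F) ≠ 1 :=
    mk_ne_one_of_not_scalar htns
  have hs5 : s * s = 1 := by
    apply SpecialLinearGroup.toGL_injective
    rw [map_mul, htt, map_one]
  have hs6 : (QuotientGroup.mk s : ProjectiveSpecialLinearGroup (Fin n) F) ^ 2 = 1 := by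
    rw [sq, ← QuotientGroup.mk_mul, hs5]; rfl
  have hs7 : orderOf (QuotientGroup.mk s : ProjectiveSpecialLinearGroup (Fin n) F) = 2 :=
    orderOf_eq_prime hs6 hs4
  apply hMsodd
  rw [← hs7]
  have := orderOf_dvd_natCard (⟨_, hs3⟩ : Ms)
  rwa [Subgroup.orderOf_mk] at this

end Cfsg.Agent.Lib.Helper91.LBP
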